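import Mathlib
import Cfsg.Agent.Lib.CIT.SzA
import Cfsg.Agent.Lib.Lin.SL2

/-!
# Elements of large order in `SL₂(q)` and `Sz(q)`
-/

set_option autoImplicit false

namespace Cfsg.Agent.CIT

open Matrix Polynomial BSW.SzM
open scoped MatrixGroups

theorem dvd_of_eigen {H F E n : Type*} [Monoid H] [Field F] [Field E] [Fintype n] [DecidableEq n]
    (ρ : H →* Matrix n n F) (f : F →+* E) {g : H} {l : E} {v : n → E} (hv : v ≠ 0)
    (e : (ρ g).map f *ᵥ v = l • v) : orderOf l ∣ orderOf g := by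
  have h : ∀ j : ℕ, (ρ (g ^ j)).map f *ᵥ v = l ^ j • v := fun j => by
    induction j with
    | zero => simp
    | succ j ih => rw [pow_succ, map_mul, Matrix.map_mul, ← mulVec_mulVec, e, mulVec_smul, ih, smul_smul,
        pow_succ']
  have := h (orderOf g)
  rw [pow_orderOf_eq_one, map_one, Matrix.map_one _ f.map_zero f.map_one, one_mulVec] at this
  exact orderOf_dvd_of_pow_eq_one (smul_left_injective E hv (this.symm.trans (one_smul _ _).symm))

variable {F : Type} [Field F] [Fintype F]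

theorem exists_eq_of_pow {E : Type*} [Field E] (f : F →+* E) {t : E} (h : t ^ Fintype.card F = t) :
    ∃ x, f x = t :=
  (splits_iff_card_roots.2 (by
    rw [FiniteField.roots_X_pow_card_sub_X, ← Finset.card_def, Finset.card_univ,
      FiniteField.X_pow_card_sub_X_natDegree_eq _ Fintype.one_lt_card])).mem_range_of_isRoot
    (FiniteField.X_pow_card_sub_X_ne_zero F Fintype.one_lt_card) (by simp [h])

theorem exists_orderOf {N : ℕ} (h : N.Coprime (Fintype.card F)) :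
    ∃ l : AlgebraicClosure F, l ≠ 0 ∧ orderOf l = N := by
  obtain ⟨p, _, n, hp, hn⟩ := FiniteField.card' F
  have : NeZero (N : F) := ⟨fun e => hp.one_lt.ne' (Nat.eq_one_of_dvd_coprimes h
    ((CharP.cast_eq_zero_iff F p N).1 e) (hn ▸ dvd_pow_self p n.ne_zero))⟩
  obtain ⟨l, hl⟩ := HasEnoughRootsOfUnity.exists_primitiveRoot (AlgebraicClosure F) N
  exact ⟨l, hl.ne_zero (NeZero.of_neZero_natCast F).ne, hl.eq_orderOf.symm⟩

theorem add_pow_card {E : Type*} [Field E] [Algebra F E] (a b : E) :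
    (a + b) ^ Fintype.card F = a ^ Fintype.card F + b ^ Fintype.card F := by
  obtain ⟨p, _, n, hp, hn⟩ := FiniteField.card' F
  have := Fact.mk hp
  have := charP_of_injective_algebraMap (algebraMap F E).injective p
  rw [hn, add_pow_char_pow]

theorem exists_dvd_SL2 {N : ℕ} (h : N + 1 = Fintype.card F ∨ N = Fintype.card F + 1) :
    ∃ g : SL(2, F), N ∣ orderOf g := by
  obtain ⟨l, l0, hl⟩ := exists_orderOf (F := F) (N := N) (by
    rcases h with h | h
    exacts [h ▸ by simp, h ▸ by simp])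
  have h1 := hl ▸ pow_orderOf_eq_one l
  obtain ⟨t, ht⟩ := exists_eq_of_pow (algebraMap F _) (t := l + l⁻¹) (by
    rw [add_pow_card, inv_pow]
    rcases h with h | h
    · rw [← h, pow_succ, h1, one_mul]
    · rw [eq_inv_of_mul_eq_one_left (by rw [← pow_succ, ← h, h1] : l ^ Fintype.card F * l = 1), inv_inv,
        add_comm])
  refine ⟨⟨!![0, -1; 1, t], by simp [det_fin_two]⟩, hl ▸ dvd_of_eigen
    SpecialLinearGroup.coeMonoidHom (algebraMap F _) (v := ![1, -l]) (by simp) ?_⟩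
  ext i
  change ((!![0, -1; 1, t] : Matrix _ _ F).map _ *ᵥ _) i = _
  fin_cases i <;> simp [mulVec, dotProduct, Fin.sum_univ_two, ht]
  field_simp
  ring

theorem SzD.exists_dvd {H : Type*} [Group H] {m N : ℕ} [CharP F 2] {θ : F ≃+* F} {ρ : H →* _}
    {s : F → F → H} {d : F → H} {w : H} (h : SzD θ ρ s d w) (hF : Fintype.card F = 2 ^ (2 * m + 1))
    (he : ∀ x, θ x = x ^ 2 ^ (m + 1))
    (hN : N + 2 ^ (m + 1) = 2 ^ (2 * m + 1) + 1 ∨ N = 2 ^ (2 * m + 1) + 1 + 2 ^ (m + 1)) :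
    ∃ g : H, N ∣ orderOf g := by
  obtain ⟨l, l0, hl⟩ := exists_orderOf (F := F) (N := N) (by
    rw [hF]
    refine (Nat.coprime_two_right.2 (Nat.odd_iff.2 ?_)).pow_right _
    rw [pow_succ, pow_succ] at hN; omega)
  by_cases l1 : l = 1
  · exact ⟨1, by simp [← hl, l1]⟩
  have h1 := hl ▸ pow_orderOf_eq_one l
  have h2 : (l ^ Fintype.card F) ^ Fintype.card F = l⁻¹ := by
    refine eq_inv_of_mul_eq_one_left ?_
    rw [← pow_mul, ← pow_succ, ← orderOf_dvd_iff_pow_eq_one, hl, hF, ← Int.natCast_dvd_natCast]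
    rcases hN with e | e <;> zify at e
    · exact ⟨2 ^ (2 * m + 1) + 1 + 2 ^ (m + 1), by push_cast; rw [eq_sub_of_add_eq e]; ring⟩
    · exact ⟨2 ^ (2 * m + 1) + 1 - 2 ^ (m + 1), by push_cast; rw [e]; ring⟩
  have h3 : (l + l⁻¹) ^ 2 ^ (m + 1) = l * l ^ Fintype.card F + (l * l ^ Fintype.card F)⁻¹ := by
    rw [add_pow_char_pow, inv_pow, ← pow_succ', hF]
    rcases hN with e | e
    · rw [← e, pow_add l, h1, one_mul]
    · rw [eq_inv_of_mul_eq_one_right (by rw [← pow_add, ← e, h1] :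
        l ^ (2 ^ (2 * m + 1) + 1) * l ^ 2 ^ (m + 1) = 1), inv_inv, add_comm]
  have u0 := pow_ne_zero (Fintype.card F) l0
  obtain ⟨t, ht⟩ := exists_eq_of_pow (algebraMap F _) (t := l + l⁻¹ + (l + l⁻¹) ^ Fintype.card F) (by
    simp only [add_pow_card, inv_pow, h2, inv_inv]; ring)
  obtain ⟨y, rfl⟩ := θ.surjective t
  have h4 := congrArg (· ^ 2 ^ (m + 1)) ht
  simp only [← map_pow, ← he, h.sq] at h4
  rw [map_pow, add_pow_char_pow, pow_right_comm, h3, add_pow_card, inv_pow, mul_pow, h2] at h4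
  rw [add_pow_card, inv_pow] at ht
  generalize l ^ Fintype.card F = u at *
  have c2 : (2 : AlgebraicClosure F) = 0 := CharTwo.two_eq_zero
  refine ⟨w * s 0 y, hl ▸ dvd_of_eigen ρ (algebraMap F _) (v := ![1 + l ^ 2, algebraMap F _ y * l,
    algebraMap F _ y * l ^ 2, l * (1 + l ^ 2)]) (fun e => l1 ?_) ?_⟩
  · have := congrFun e 0
    exact sub_eq_zero.1 (pow_eq_zero_iff two_ne_zero |>.1 (by
      simp only [cons_val_zero, Pi.zero_apply] at this; linear_combination this - l * c2))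
  rw [map_mul, h.ρw, h.ρs]
  ext i
  fin_cases i <;> simp [Wm, Sm, mulVec, dotProduct, Fin.sum_univ_four, Matrix.mul_apply, ht]
  · ring
  · linear_combination algebraMap F _ y * l * c2
  · rw [mul_inv, mul_inv, inv_inv] at h4
    linear_combination l ^ 2 * h4 + (1 + l ^ 2 + (l ^ 3 + l) * (u + u⁻¹)) * c2 +
      (l * (u + u⁻¹) + 1 + l ^ 2) * mul_inv_cancel₀ l0

theorem le_two_of_five {m a : ℕ} (hm : 1 ≤ m)
    (h : 5 ^ a + 2 ^ (m + 1) = 2 ^ (2 * m + 1) + 1 ∨ 5 ^ a = 2 ^ (2 * m + 1) + 1 + 2 ^ (m + 1)) :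
    m ≤ 2 := by
  by_contra! h3
  obtain ⟨n, rfl⟩ : ∃ n, m = n + 1 := ⟨m - 1, by omega⟩
  have h1 : 2 ^ n ∣ a := by
    rw [← ZMod.orderOf_five n, orderOf_dvd_iff_pow_eq_one]
    have e : ((2 ^ (n + 2) : ℕ) : ZMod (2 ^ (n + 2))) = 0 := ZMod.natCast_self _
    rcases h with h | h <;> have := congrArg (Nat.cast : ℕ → ZMod (2 ^ (n + 2))) h <;>
      push_cast at this e
    exacts [by linear_combination this + (2 ^ (n + 1) - 1) * e,
      by linear_combination this + (2 ^ (n + 1) + 1) * e]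
  obtain ⟨n, rfl⟩ : ∃ k, n = k + 2 := ⟨n - 2, by omega⟩
  have h2 : 2 ^ (n + 2 + 1 + 1) < 2 ^ (2 * (n + 2 + 1) + 1) := Nat.pow_lt_pow_right one_lt_two (by omega)
  have h5 := Nat.le_of_dvd (Nat.pos_of_ne_zero (by rintro rfl; omega)) h1
  have h6 : n + 4 ≤ 2 ^ (n + 2) := by have := @Nat.lt_two_pow_self n; rw [pow_add]; omega
  have h7 := (Nat.pow_lt_pow_left (show 4 < 5 by decide) (show n + 4 ≠ 0 by omega)).trans_le
    (Nat.pow_le_pow_right (show 0 < 5 by decide) (h6.trans h5))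
  rw [show 4 ^ (n + 4) = 2 ^ (2 * (n + 2 + 1) + 1) * 2 by rw [show 4 = 2 ^ 2 from rfl, ← pow_mul]; ring] at h7
  generalize 5 ^ a = x, 2 ^ (n + 2 + 1 + 1) = y, 2 ^ (2 * (n + 2 + 1) + 1) = z at *
  omega

end Cfsg.Agent.CIT
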